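import Mathlib

/-!
The arithmetic of the class equation for a group with elements of three prime orders.
-/

set_option autoImplicit false

namespace CfsgLib.FourOrbits

/-- The class equation: `e` is the index of each Sylow subgroup in its normaliser. -/
theorem even_of_eq {a b c e₁ e₂ e₃ : ℤ} (ha : 2 ≤ a) (hb : 2 ≤ b) (hc : 2 ≤ c)
    (h1 : 3 ≤ e₁) (h2 : 3 ≤ e₂) (h3 : 3 ≤ e₃)
    (heq : e₁ * e₂ * e₃ * (a * b * c) = e₁ * e₂ * e₃ + (a - 1) * b * c * (e₂ * e₃) +
      (b - 1) * a * c * (e₁ * e₃) + (c - 1) * a * b * (e₁ * e₂)) : False := by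
  have hE : 0 < e₁ * e₂ * e₃ := by positivity
  have t1 : 0 ≤ (e₁ - 3) * ((a - 1) * b * c * (e₂ * e₃)) :=
    mul_nonneg (by omega) (mul_nonneg (mul_nonneg (mul_nonneg (by omega) (by omega)) (by omega)) (by positivity))
  have t2 : 0 ≤ (e₂ - 3) * ((b - 1) * a * c * (e₁ * e₃)) :=
    mul_nonneg (by omega) (mul_nonneg (mul_nonneg (mul_nonneg (by omega) (by omega)) (by omega)) (by positivity))
  have t3 : 0 ≤ (e₃ - 3) * ((c - 1) * a * b * (e₁ * e₂)) :=
    mul_nonneg (by omega) (mul_nonneg (mul_nonneg (mul_nonneg (by omega) (by omega)) (by omega)) (by positivity))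
  have t4 : 3 < b * c + a * c + a * b := by nlinarith
  nlinarith [mul_lt_mul_of_pos_left t4 hE]

theorem pow_three_of_sq {i k : ℕ} (hi : 3 ≤ i) (h : 3 ^ k = 2 ^ i + 1) : 3 ^ k = 9 := by
  have h8 : (8 : ℕ) ∣ 2 ^ i := (show (8 : ℕ) = 2 ^ 3 by norm_num) ▸ pow_dvd_pow 2 hi
  obtain ⟨t, ht⟩ : ∃ t, k = 2 * t := by
    rcases Nat.even_or_odd' k with ⟨t, rfl | rfl⟩
    · exact ⟨t, rfl⟩
    · exfalso
      have : 3 ^ (2 * t + 1) % 8 = 3 := by
        rw [pow_succ, pow_mul, Nat.mul_mod, Nat.pow_mod]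
        norm_num
      omega
  subst ht
  have h1 : (3 ^ t + 1) * (3 ^ t - 1) = 2 ^ i := by
    have h0 : 1 ≤ 3 ^ t := Nat.one_le_pow _ _ (by norm_num)
    obtain ⟨m, hm⟩ : ∃ m, 3 ^ t = m + 1 := ⟨3 ^ t - 1, by omega⟩
    have h2 : 3 ^ (2 * t) = (m + 1) * (m + 1) := by rw [← hm, ← pow_add]; congr 1; omega
    rw [hm, Nat.add_sub_cancel]
    nlinarith
  obtain ⟨u, -, hu⟩ := (Nat.dvd_prime_pow Nat.prime_two).mp (h1 ▸ dvd_mul_right (3 ^ t + 1) (3 ^ t - 1))
  obtain ⟨v, -, hv⟩ := (Nat.dvd_prime_pow Nat.prime_two).mp (h1 ▸ dvd_mul_left (3 ^ t - 1) (3 ^ t + 1))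
  have hne : 3 ^ t - 1 ≠ 0 := fun e => by
    rw [e, mul_zero] at h1
    exact absurd h1.symm (by positivity)
  have hv1 : v ≤ 1 := by
    by_contra hv2
    have h4 : (4 : ℕ) ∣ 2 ^ v := (show (4 : ℕ) = 2 ^ 2 by norm_num) ▸ pow_dvd_pow 2 (by omega)
    have hu2 : 2 ≤ u := by
      by_contra hu'
      have : 2 ^ u ≤ 2 ^ 1 := Nat.pow_le_pow_right (by norm_num) (by omega)
      have : 2 ^ 2 ≤ 2 ^ v := Nat.pow_le_pow_right (by norm_num) (by omega)
      omega
    have h5 : (4 : ℕ) ∣ 2 ^ u := (show (4 : ℕ) = 2 ^ 2 by norm_num) ▸ pow_dvd_pow 2 hu2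
    omega
  have h6 : 2 ^ v ≤ 2 := (Nat.pow_le_pow_right (by norm_num) hv1).trans (by norm_num)
  have h7 : Odd (3 ^ t) := Odd.pow (by decide)
  obtain ⟨w, hw⟩ := h7
  have h8' : 3 ^ t = 3 := by omega
  rw [mul_comm 2 t, pow_mul, h8']
  norm_num

/-- The case `e₂ = e₃ = 2`. -/
theorem case_two_two {a b c q : ℤ} (hq : 3 ≤ q) (hqb : q ∣ b) (hb : 0 < b) (hc : 1 < c) (hcodd : Odd c)
    (ha : 2 ≤ a) (hqa : q ∣ a - 1) (_hqodd : Odd q)
    (heq : q * 2 * 2 * (a * b * c) = q * 2 * 2 + (a - 1) * b * c * (2 * 2) +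
      (b - 1) * a * c * (q * 2) + (c - 1) * a * b * (q * 2)) :
    a = q + 1 ∧ b = q ∧ c = q + 2 := by
  obtain ⟨k, hk⟩ := hqa
  have hk1 : 1 ≤ k := by nlinarith
  have he : 2 * k * (b * c) = a * (b + c) - 2 := by
    have h2 : q * (2 * k * (b * c)) = q * (a * (b + c) - 2) := by
      have h3 : 2 * (a - 1) * (b * c) = q * (a * (b + c) - 2) := by linarith
      rw [← h3, hk]; ring
    exact mul_left_cancel₀ (by omega) h2
  have hqc : q ∣ c - 2 := by
    obtain ⟨b', rfl⟩ := hqb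
    refine ⟨2 * k * b' * c - a * b' - k * c, ?_⟩
    have ha' : a = q * k + 1 := by omega
    rw [ha'] at he ⊢
    linear_combination -he
  obtain ⟨j, hj⟩ := hqc
  have hj1 : 1 ≤ j := by
    by_contra hj0
    rcases eq_or_lt_of_le (show j ≤ 0 by omega) with h | h
    · subst h
      obtain ⟨w, hw⟩ := hcodd
      omega
    · nlinarith
  have hc2 : q + 2 ≤ c := by nlinarith
  have hbq : q ≤ b := Int.le_of_dvd hb hqb
  have hprod : (2 * k * b - a) * (2 * k * c - a) = a ^ 2 - 4 * k := by linear_combination (2 * k) * he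
  have ha' : a = q * k + 1 := by omega
  have hf1 : k * q - 1 ≤ 2 * k * b - a := by nlinarith
  have hf2 : k * q + 4 * k - 1 ≤ 2 * k * c - a := by nlinarith
  have hpos : 0 ≤ k * q - 1 := by nlinarith
  have hge : (k * q - 1) * (k * q + 4 * k - 1) ≤ a ^ 2 - 4 * k := by
    rw [← hprod]
    exact mul_le_mul hf1 hf2 (by nlinarith) (by linarith)
  rw [ha'] at hge
  have hkle : k ≤ 1 := by nlinarith
  obtain rfl : k = 1 := by omega
  have ha1 : a = q + 1 := by omega
  subst ha1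
  refine ⟨rfl, ?_, ?_⟩
  · by_contra hne
    have : q + 1 ≤ b := by omega
    nlinarith
  · by_contra hne
    have : q + 3 ≤ c := by omega
    nlinarith

/-- The case `e₁ = q`, `e₂ = 2`, `e₃ = q = 3`. -/
theorem case_three {a b c : ℕ} {i j k r : ℕ} (ha : a = 2 ^ i) (hb : b = 3 ^ j) (hc : c = r ^ k)
    (hr : r.Prime) (hr2 : r ≠ 2) (hr3 : r ≠ 3) (hk : 1 ≤ k) (hj : 1 ≤ j) (ha3 : 3 ∣ a - 1) (ha2 : 2 ≤ a)
    (hc3 : 3 ∣ c - 1)
    (heq : (a : ℤ) * b * c + 6 = 2 * (b * c) + 3 * (a * c) + 2 * (a * b)) : False := by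
  have hc7 : 7 ≤ c := by
    have h1 : r ≤ c := hc ▸ Nat.le_self_pow (by omega) r
    have h5 : 5 ≤ r := by
      have := hr.two_le
      rcases eq_or_ne r 4 with rfl | h
      · norm_num at hr
      · omega
    have hodd : Odd c := hc ▸ (hr.odd_of_ne_two hr2).pow
    obtain ⟨w, hw⟩ := hodd
    omega
  have hb3 : b = 3 ∨ 9 ≤ b := by
    rcases eq_or_lt_of_le hj with h | h
    · left; rw [hb, ← h, pow_one]
    · right
      have : 3 ^ 2 ≤ 3 ^ j := Nat.pow_le_pow_right (by norm_num) h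
      omega
  rcases hb3 with hb3 | hb9
  · rw [hb3] at heq
    push_cast at heq
    nlinarith
  have ha16 : a = 4 ∨ 16 ≤ a := by
    rcases Nat.lt_or_ge i 4 with h | h
    · left
      interval_cases i <;> simp_all
    · right
      rw [ha]
      calc 16 = 2 ^ 4 := by norm_num
        _ ≤ _ := Nat.pow_le_pow_right (by norm_num) h
  rcases ha16 with ha4 | ha16
  · rw [ha4] at heq
    have h21 : ((b : ℤ) - 6) * (c - 4) = 21 := by push_cast at heq; linarith
    have hle : b ≤ 13 := by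
      by_contra h
      have : (8 : ℤ) ≤ (b : ℤ) - 6 := by omega
      nlinarith
    have hb' : b = 9 := by
      rcases Nat.lt_or_ge j 3 with h | h
      · interval_cases j <;> simp_all
      · have : 3 ^ 3 ≤ 3 ^ j := Nat.pow_le_pow_right (by norm_num) h
        omega
    rw [hb'] at h21
    push_cast at h21
    omega
  · have h1 : (0 : ℤ) ≤ ((a : ℤ) - 16) * (b * c) := mul_nonneg (by omega) (by positivity)
    have h2 : (0 : ℤ) ≤ ((b : ℤ) - 9) * (a * c) := mul_nonneg (by omega) (by positivity)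
    have h3 : (0 : ℤ) ≤ ((c : ℤ) - 7) * (a * b) := mul_nonneg (by omega) (by positivity)
    nlinarith

/-- The case `e₁ = 3`, `e₂ = r = 5`, `e₃ = 2`. -/
theorem case_three_five {a b c : ℕ} {i j k : ℕ} (ha : a = 2 ^ i) (hb : b = 3 ^ j) (hc : c = 5 ^ k)
    (hk : 1 ≤ k) (hj : 1 ≤ j) (hi : 1 ≤ i) (ha3 : 3 ∣ a - 1) (hb5 : 5 ∣ b - 1)
    (heq : (a : ℤ) * b * c + 30 = 10 * (b * c) + 6 * (a * c) + 15 * (a * b)) : False := by
  have hb81 : 81 ≤ b := by
    rcases Nat.lt_or_ge j 4 with h | h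
    · interval_cases j <;> simp_all
    · rw [hb]
      calc 81 = 3 ^ 4 := by norm_num
        _ ≤ _ := Nat.pow_le_pow_right (by norm_num) h
  have hci : c = 5 ∨ c = 25 ∨ 125 ≤ c := by
    rcases Nat.lt_or_ge k 3 with h | h
    · interval_cases k <;> simp_all
    · right; right; rw [hc]
      calc 125 = 5 ^ 3 := by norm_num
        _ ≤ _ := Nat.pow_le_pow_right (by norm_num) h
  have hai : a = 4 ∨ a = 16 ∨ 64 ≤ a := by
    rcases Nat.lt_or_ge i 6 with h | h
    · interval_cases i <;> simp_all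
    · right; right; rw [ha]
      calc 64 = 2 ^ 6 := by norm_num
        _ ≤ _ := Nat.pow_le_pow_right (by norm_num) h
  have hc5 : 5 ≤ c := by omega
  rcases hai with rfl | hai
  · push_cast at heq; nlinarith
  rcases hci with rfl | rfl | hc125
  · push_cast at heq; nlinarith
  · push_cast at heq
    have h : ((a : ℤ) - 25) * (b - 15) = 372 := by linarith
    have h1 : (66 : ℤ) ≤ (b : ℤ) - 15 := by omega
    rcases hai with rfl | hai
    · push_cast at h; omega
    · nlinarith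
  rcases hai with rfl | ha64
  · push_cast at heq
    have h : ((b : ℤ) - 16) * (c - 40) = 635 := by linarith
    have h1 : (65 : ℤ) ≤ (b : ℤ) - 16 := by omega
    have h2 : (85 : ℤ) ≤ (c : ℤ) - 40 := by omega
    nlinarith
  · have h1 : (0 : ℤ) ≤ ((a : ℤ) - 64) * (b * c) := mul_nonneg (by omega) (by positivity)
    have h2 : (0 : ℤ) ≤ ((b : ℤ) - 81) * (a * c) := mul_nonneg (by omega) (by positivity)
    have h3 : (0 : ℤ) ≤ ((c : ℤ) - 125) * (a * b) := mul_nonneg (by omega) (by positivity)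
    nlinarith

/-- The case `e₁ = 5`, `e₂ = r = 3`, `e₃ = 2`. -/
theorem case_five_three {a b c : ℕ} {i j k : ℕ} (ha : a = 2 ^ i) (hb : b = 5 ^ j) (hc : c = 3 ^ k)
    (hk : 1 ≤ k) (hj : 1 ≤ j) (hi : 1 ≤ i) (ha5 : 5 ∣ a - 1) (hb3 : 3 ∣ b - 1)
    (heq : (a : ℤ) * b * c + 30 = 6 * (b * c) + 10 * (a * c) + 15 * (a * b)) : False := by
  have hb25 : b = 25 ∨ 625 ≤ b := by
    rcases Nat.lt_or_ge j 4 with h | h
    · interval_cases j <;> simp_all
    · right; rw [hb]
      calc 625 = 5 ^ 4 := by norm_num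
        _ ≤ _ := Nat.pow_le_pow_right (by norm_num) h
  have hci : c = 3 ∨ c = 9 ∨ c = 27 ∨ 81 ≤ c := by
    rcases Nat.lt_or_ge k 4 with h | h
    · interval_cases k <;> simp_all
    · right; right; right; rw [hc]
      calc 81 = 3 ^ 4 := by norm_num
        _ ≤ _ := Nat.pow_le_pow_right (by norm_num) h
  have hai : 16 ≤ a := by
    rcases Nat.lt_or_ge i 4 with h | h
    · interval_cases i <;> simp_all
    · rw [ha]
      calc 16 = 2 ^ 4 := by norm_num
        _ ≤ _ := Nat.pow_le_pow_right (by norm_num) h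
  rcases hci with rfl | rfl | rfl | hc81
  · push_cast at heq; nlinarith
  · push_cast at heq; nlinarith
  · push_cast at heq
    have h : (2 * (a : ℤ) - 27) * (2 * b - 45) = 1205 := by linarith
    rcases hb25 with rfl | hb625
    · have ha134 : a = 134 := by push_cast at h; omega
      have h7 : i ≤ 8 := by
        by_contra h9
        have : 2 ^ 9 ≤ 2 ^ i := Nat.pow_le_pow_right (by norm_num) (by omega)
        omega
      interval_cases i <;> simp_all
    · have h1 : (1205 : ℤ) ≤ 2 * (b : ℤ) - 45 := by omega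
      have h2 : (5 : ℤ) ≤ 2 * (a : ℤ) - 27 := by omega
      nlinarith
  · have h1 : (0 : ℤ) ≤ ((a : ℤ) - 16) * (b * c) := mul_nonneg (by omega) (by positivity)
    have h2 : (0 : ℤ) ≤ ((b : ℤ) - 25) * (a * c) := mul_nonneg (by omega) (by positivity)
    have h3 : (0 : ℤ) ≤ ((c : ℤ) - 81) * (a * b) := mul_nonneg (by omega) (by positivity)
    nlinarith

/-- `p = 2` and `e₁ = q`: the group has order `60` or `504`. -/
theorem eq_of_class_equation {q r : ℕ} (hq : q.Prime) (hr : r.Prime) (hq2 : q ≠ 2) (hr2 : r ≠ 2)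
    (hqr : q ≠ r) {i j k : ℕ} (hi : 1 ≤ i) (hj : 1 ≤ j) (hk : 1 ≤ k) {e₂ e₃ : ℕ}
    (he2 : e₂ = 2 ∨ e₂ = r) (he3 : e₃ = 2 ∨ e₃ = q)
    (hd1 : q ∣ 2 ^ i - 1) (hd2 : e₂ ∣ q ^ j - 1) (hd3 : e₃ ∣ r ^ k - 1)
    (heq : (q : ℤ) * e₂ * e₃ * ((2 : ℤ) ^ i * (q : ℤ) ^ j * (r : ℤ) ^ k) =
      q * e₂ * e₃ + ((2 : ℤ) ^ i - 1) * (q : ℤ) ^ j * (r : ℤ) ^ k * (e₂ * e₃) +
      ((q : ℤ) ^ j - 1) * (2 : ℤ) ^ i * (r : ℤ) ^ k * (q * e₃) +
      ((r : ℤ) ^ k - 1) * (2 : ℤ) ^ i * (q : ℤ) ^ j * (q * e₂)) :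
    (2 ^ i = 4 ∧ q ^ j = 3 ∧ r ^ k = 5) ∨ (2 ^ i = 8 ∧ q ^ j = 7 ∧ r ^ k = 9) := by
  have hq3 : 3 ≤ q := by have := hq.two_le; omega
  have hr3 : 3 ≤ r := by have := hr.two_le; omega
  obtain ⟨a, ha⟩ : ∃ a, a = 2 ^ i := ⟨_, rfl⟩
  obtain ⟨b, hb⟩ : ∃ b, b = q ^ j := ⟨_, rfl⟩
  obtain ⟨c, hc⟩ : ∃ c, c = r ^ k := ⟨_, rfl⟩
  have ha2 : 2 ≤ a := ha ▸ Nat.le_self_pow (by omega) 2
  have hbq : q ≤ b := hb ▸ Nat.le_self_pow (by omega) q
  have hcr : r ≤ c := hc ▸ Nat.le_self_pow (by omega) r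
  have hacast : (a : ℤ) = (2 : ℤ) ^ i := by rw [ha]; norm_num
  have hbcast : (b : ℤ) = (q : ℤ) ^ j := by rw [hb]; norm_num
  have hccast : (c : ℤ) = (r : ℤ) ^ k := by rw [hc]; norm_num
  rw [← hacast, ← hbcast, ← hccast] at heq
  rw [← ha] at hd1; rw [← hb] at hd2; rw [← hc] at hd3
  rcases he2 with h2 | h2 <;> rcases he3 with h3 | h3 <;> rw [h2, h3] at heq <;> rw [h2] at hd2 <;>
    rw [h3] at hd3
  · push_cast at heq
    obtain ⟨h1', h2', h3'⟩ := case_two_two (a := (a : ℤ)) (b := b) (c := c) (q := q) (by exact_mod_cast hq3)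
      (by exact_mod_cast hb ▸ dvd_pow_self q (by omega)) (by omega) (by omega)
      (by exact_mod_cast hc ▸ (hr.odd_of_ne_two hr2).pow) (by omega)
      (by rw [show (a : ℤ) - 1 = ((a - 1 : ℕ) : ℤ) by omega]; exact_mod_cast hd1)
      (by exact_mod_cast hq.odd_of_ne_two hq2) heq
    have ha1 : a = q + 1 := by omega
    have hb1 : b = q := by omega
    have hc1 : c = q + 2 := by omega
    rcases eq_or_ne q 3 with rfl | hq3'
    · left; omega
    · right
      have hi3 : 3 ≤ i := by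
        by_contra h
        interval_cases i <;> omega
      have h3c : 3 ∣ c := by
        have h3q : ¬ 3 ∣ q := fun h => hq3' ((Nat.prime_dvd_prime_iff_eq Nat.prime_three hq).mp h).symm
        have h3a : a % 3 = 1 ∨ a % 3 = 2 := by
          have h : ¬ 3 ∣ a := fun h => by
            rw [ha] at h
            exact absurd (Nat.prime_three.dvd_of_dvd_pow h) (by norm_num)
          omega
        omega
      have hr3' : r = 3 :=
        ((Nat.prime_dvd_prime_iff_eq Nat.prime_three hr).mp (Nat.prime_three.dvd_of_dvd_pow (hc ▸ h3c))).symm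
      subst hr3'
      have h9 := pow_three_of_sq hi3 (by omega : 3 ^ k = 2 ^ i + 1)
      omega
  · exfalso
    -- `e₂ = 2`, `e₃ = q`, forcing `q = 3`
    have hq' : q = 3 := by
      by_contra h
      have hq5 : (5 : ℤ) ≤ q := by
        rcases eq_or_ne q 4 with rfl | h4
        · norm_num at hq
        · omega
      push_cast at heq
      have heq' : 2 * (q : ℤ) * (a * b * c) = 2 * q + 2 * ((a - 1) * b * c) + q * ((b - 1) * a * c) + 2 * ((c - 1) * a * b) := by
        refine mul_left_cancel₀ (show (q : ℤ) ≠ 0 by omega) ?_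
        linear_combination heq
      have t : 0 ≤ ((q : ℤ) - 5) * (a * b * c) := mul_nonneg (by omega) (by positivity)
      have hab : (0 : ℤ) < a * b := mul_pos (by omega) (by omega)
      have hbc : (0 : ℤ) < b * c := mul_pos (by omega) (by omega)
      have hac : (3 : ℤ) * 1 ≤ (c : ℤ) * a := mul_le_mul (by omega) (by omega) (by omega) (by omega)
      nlinarith
    subst hq'
    push_cast at heq
    exact case_three ha hb hc hr hr2 (Ne.symm hqr) hk hj hd1 ha2 hd3 (by linarith)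
  · exfalso
    -- `e₂ = r`, `e₃ = 2`
    push_cast at heq
    have hcases : (q = 3 ∧ r = 5) ∨ (q = 5 ∧ r = 3) := by
      have hbc : (0 : ℤ) < b * c := mul_pos (by omega) (by omega)
      have hac : (0 : ℤ) < a * c := mul_pos (by omega) (by omega)
      have hab : (2 : ℤ) * 3 ≤ (a : ℤ) * b := mul_le_mul (by omega) (by omega) (by omega) (by omega)
      have key : (q : ℤ) * r < 2 * q + 2 * r := by
        by_contra h
        have t : 0 ≤ ((q : ℤ) * r - 2 * q - 2 * r) * (a * b * c) := mul_nonneg (by omega) (by positivity)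
        have u1 : 0 < (r : ℤ) * (b * c) := mul_pos (by omega) hbc
        have u2 : 0 < (q : ℤ) * (a * c) := mul_pos (by omega) hac
        have hqe : (0 : ℤ) ≤ (q : ℤ) * r := by positivity
        have u3 : (q : ℤ) * r * 6 ≤ (q : ℤ) * r * (a * b) := mul_le_mul_of_nonneg_left (by linarith) hqe
        nlinarith
      have hlt : q < 6 := by nlinarith
      have hlt' : r < 6 := by nlinarith
      interval_cases q <;> first | (norm_num at hq; done) | (interval_cases r <;> simp_all (config := { decide := true }))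
    rcases hcases with ⟨rfl, rfl⟩ | ⟨rfl, rfl⟩
    · push_cast at heq
      exact case_three_five ha hb hc hk hj hi hd1 hd2 (by linarith)
    · push_cast at heq
      exact case_five_three ha hb hc hk hj hi hd1 hd2 (by linarith)
  · exfalso
    have key : 0 ≤ (q : ℤ) * r - 2 * r - q := by
      rcases eq_or_ne q 3 with rfl | h
      · push_cast; omega
      · have : (0 : ℤ) ≤ ((q : ℤ) - 4) * ((r : ℤ) - 2) := mul_nonneg (by omega) (by omega)
        nlinarith
    have heq' : (q : ℤ) * r * (a * b * c) = q * r + r * ((a - 1) * b * c) + q * ((b - 1) * a * c) + r * ((c - 1) * a * b) := by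
      refine mul_left_cancel₀ (show (q : ℤ) ≠ 0 by omega) ?_
      linear_combination heq
    have t : 0 ≤ ((q : ℤ) * r - 2 * r - q) * (a * b * c) := mul_nonneg key (by positivity)
    have hab : (6 : ℤ) ≤ a * b := by
      have : (2 : ℤ) * 3 ≤ (a : ℤ) * b := mul_le_mul (by omega) (by omega) (by omega) (by omega)
      linarith
    have hbc : (9 : ℤ) ≤ b * c := by
      have : (3 : ℤ) * 3 ≤ (b : ℤ) * c := mul_le_mul (by omega) (by omega) (by omega) (by omega)
      linarith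
    have hac : (6 : ℤ) ≤ a * c := by
      have : (2 : ℤ) * 3 ≤ (a : ℤ) * c := mul_le_mul (by omega) (by omega) (by omega) (by omega)
      linarith
    have u1 : (r : ℤ) * 9 ≤ r * (b * c) := mul_le_mul_of_nonneg_left hbc (by omega)
    have u2 : (q : ℤ) * 6 ≤ q * (a * c) := mul_le_mul_of_nonneg_left hac (by omega)
    have u3 : (r : ℤ) * 6 ≤ r * (a * b) := mul_le_mul_of_nonneg_left hab (by omega)
    have hr' : (3 : ℤ) ≤ (r : ℤ) := by exact_mod_cast hr3
    nlinarith

end CfsgLib.FourOrbits
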