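import Cfsg.Agent.FourOrbits.EPO
import Cfsg.Agent.CharBasics.Burnside
import Cfsg.Agent.Hall.System

/-!
Counting in a non-solvable group with prime element orders in which elements of the same order
are interchanged by automorphisms.
-/

set_option autoImplicit false
set_option linter.style.haveILetI false

namespace CfsgLib.FourOrbits

open Subgroup

universe u

variable {G : Type u} [Group G]

/-- Elements of the same order are interchanged by automorphisms. -/
def Homogeneous (G : Type*) [Group G] : Prop :=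
  ∀ x y : G, orderOf x = orderOf y → ∃ φ : MulAut G, φ x = y

variable [Finite G]

section Sylow

variable (hG : PrimeOrders G) (hH : Homogeneous G) {p : ℕ} [Fact p.Prime] (P : Sylow p G)
include hG hH

theorem sylow_comm {x y : G} (hx : x ∈ (P : Subgroup G)) (hy : y ∈ (P : Subgroup G)) : x * y = y * x := by
  rcases eq_or_ne x 1 with rfl | hx1
  · simp
  have hxo := hG.orderOf_eq_of_mem (Fact.out : p.Prime) P.isPGroup' hx hx1
  haveI : Nontrivial (P : Subgroup G) := ⟨⟨⟨x, hx⟩, 1, fun e => hx1 (congrArg Subtype.val e)⟩⟩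
  haveI := P.isPGroup'.center_nontrivial
  obtain ⟨z, hz⟩ := exists_ne (1 : center (P : Subgroup G))
  have hz1 : ((z : (P : Subgroup G)) : G) ≠ 1 := fun e => hz (Subtype.ext (Subtype.ext e))
  have hzo := hG.orderOf_eq_of_mem (Fact.out : p.Prime) P.isPGroup' (z : (P : Subgroup G)).2 hz1
  obtain ⟨φ, hφ⟩ := hH ((z : (P : Subgroup G)) : G) x (by rw [hzo, hxo])
  set R : Subgroup G := (P : Subgroup G).map φ.toMonoidHom with hR
  have hRc : Nat.card R = Nat.card P := Subgroup.card_map_of_injective φ.injective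
  obtain ⟨Q, hQ⟩ := (P.isPGroup'.map φ.toMonoidHom).exists_le_sylow
  have hRQ : R = Q := Subgroup.eq_of_le_of_card_ge hQ (by
    rw [hRc, P.card_eq_multiplicity, Q.card_eq_multiplicity])
  have hxR : x ∈ R := ⟨_, (z : (P : Subgroup G)).2, hφ⟩
  have hQP : Q = P := eq_of_inf_ne_bot hG Q P fun e => hx1 (by
    have h : x ∈ (Q : Subgroup G) ⊓ P := ⟨hRQ ▸ hxR, hx⟩
    rwa [e, Subgroup.mem_bot] at h)
  rw [hQP] at hRQ
  obtain ⟨u, hu, rfl⟩ : y ∈ R := hRQ.symm ▸ hy
  rw [← hφ]
  show φ _ * φ u = φ u * φ _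
  have hc : u * ((z : (P : Subgroup G)) : G) = ((z : (P : Subgroup G)) : G) * u :=
    congrArg Subtype.val (mem_center_iff.mp z.2 ⟨u, hu⟩)
  rw [← map_mul, ← map_mul, hc]

omit hH in
theorem mem_of_commute {x y : G} (hx : x ∈ (P : Subgroup G)) (hx1 : x ≠ 1) (h : Commute x y) :
    y ∈ (P : Subgroup G) := by
  have hxo := hG.orderOf_eq_of_mem (Fact.out : p.Prime) P.isPGroup' hx hx1
  have hC : IsPGroup p (centralizer ({x} : Set G)) := by
    rintro ⟨g, hg⟩
    refine ⟨1, Subtype.ext ?_⟩
    show g ^ p ^ 1 = 1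
    rcases eq_or_ne g 1 with rfl | hg1
    · exact one_pow _
    · have h1 : Commute g x := mem_centralizer_singleton_iff.mp hg
      rw [pow_one, ← hxo, ← hG.orderOf_eq_of_commute h1 hg1 hx1, pow_orderOf_eq_one]
  obtain ⟨Q, hQ⟩ := hC.exists_le_sylow
  have hxQ : x ∈ (Q : Subgroup G) := hQ (mem_centralizer_singleton_iff.mpr rfl)
  have hQP : Q = P := eq_of_inf_ne_bot hG Q P fun e => hx1 (by
    have h : x ∈ (Q : Subgroup G) ⊓ P := ⟨hxQ, hx⟩
    rwa [e, Subgroup.mem_bot] at h)
  rw [← hQP]
  exact hQ (mem_centralizer_singleton_iff.mpr h.eq.symm)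

omit hH in
/-- The elements of order `p` are partitioned by the Sylow `p`-subgroups. -/
theorem card_orderOf_mul :
    Nat.card {x : G // orderOf x = p} * (Nat.card P *
      (P : Subgroup G).relIndex (normalizer ((P : Subgroup G) : Set G))) =
    Nat.card G * (Nat.card P - 1) := by
  classical
  have hp : p.Prime := Fact.out
  haveI := Fintype.ofFinite (Sylow p G)
  let f : (Σ Q : Sylow p G, {u : (Q : Subgroup G) // u ≠ 1}) → {x : G // orderOf x = p} := fun v =>
    ⟨(v.2.1 : G), hG.orderOf_eq_of_mem hp v.1.isPGroup' v.2.1.2 fun e => v.2.2 (Subtype.ext e)⟩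
  have hf : Function.Bijective f := by
    constructor
    · rintro ⟨Q, ⟨⟨u, hu⟩, hu1⟩⟩ ⟨Q', ⟨⟨u', hu'⟩, hu1'⟩⟩ h
      have huu : u = u' := congrArg Subtype.val h
      subst huu
      obtain rfl : Q = Q' := eq_of_inf_ne_bot hG Q Q' fun e => hu1 (Subtype.ext (by
        have h : u ∈ (Q : Subgroup G) ⊓ Q' := ⟨hu, hu'⟩
        rw [e] at h
        exact Subgroup.mem_bot.mp h))
      rfl
    · rintro ⟨x, hx⟩
      have h1 : IsPGroup p (zpowers x) := IsPGroup.of_card (n := 1) (by rw [Nat.card_zpowers, hx, pow_one])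
      obtain ⟨Q, hQ⟩ := h1.exists_le_sylow
      exact ⟨⟨Q, ⟨x, hQ (mem_zpowers x)⟩, fun e => hp.ne_one (by
        rw [← hx, orderOf_eq_one_iff]; exact congrArg Subtype.val e)⟩, rfl⟩
  have hcard : ∀ Q : Sylow p G, Nat.card {u : (Q : Subgroup G) // u ≠ 1} = Nat.card P - 1 := fun Q => by
    haveI := Fintype.ofFinite (Q : Subgroup G)
    rw [Nat.card_eq_fintype_card, Fintype.card_subtype_compl, Fintype.card_subtype_eq,
      ← Nat.card_eq_fintype_card, Q.card_eq_multiplicity, P.card_eq_multiplicity]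
  rw [← Nat.card_congr (Equiv.ofBijective f hf), Nat.card_sigma, Finset.sum_congr rfl (fun Q _ => hcard Q),
    Finset.sum_const, smul_eq_mul, Finset.card_univ, ← Nat.card_eq_fintype_card,
    Sylow.card_eq_index_normalizer P]
  have h : (normalizer ((P : Subgroup G) : Set G)).index * (Nat.card P *
      (P : Subgroup G).relIndex (normalizer ((P : Subgroup G) : Set G))) = Nat.card G := by
    rw [mul_comm, mul_assoc, Subgroup.relIndex_mul_index le_normalizer, Subgroup.card_mul_index]
  rw [mul_right_comm]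
  exact congrArg (· * _) h

variable (hns : ¬ Group.IsSolvable G)
  (h3 : (Nat.card G).primeFactors.card ≤ 3) (hp : p ∣ Nat.card G)
include hns h3 hp

/-- The index of `P` in its normaliser is another prime, dividing `|P| - 1`. -/
theorem relIndex_normalizer :
    ((P : Subgroup G).relIndex (normalizer ((P : Subgroup G) : Set G))).Prime ∧
    (P : Subgroup G).relIndex (normalizer ((P : Subgroup G) : Set G)) ≠ p ∧
    (P : Subgroup G).relIndex (normalizer ((P : Subgroup G) : Set G)) ∈ (Nat.card G).primeFactors ∧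
    (P : Subgroup G).relIndex (normalizer ((P : Subgroup G) : Set G)) ∣ Nat.card P - 1 := by
  classical
  have hpp : p.Prime := Fact.out
  set N := normalizer ((P : Subgroup G) : Set G) with hN
  haveI : IsMulCommutative (P : Subgroup G) :=
    ⟨⟨fun a b => Subtype.ext (sylow_comm hG hH P a.2 b.2)⟩⟩
  have hP1 : (P : Subgroup G) ≠ ⊥ := P.ne_bot_of_dvd_card hp
  have he : ((P.subtype le_normalizer : Sylow p N) : Subgroup N).index = (P : Subgroup G).relIndex N := rfl
  set e := (P : Subgroup G).relIndex N with hedef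
  have hne1 : e ≠ 1 := by
    intro h1
    have hNP : N ≤ (P : Subgroup G) := Subgroup.relIndex_eq_one.mp h1
    have hNC : N ≤ centralizer ((P : Subgroup G) : Set G) :=
      hNP.trans fun a ha => mem_centralizer_iff.mpr fun b hb => sylow_comm hG hH P hb ha
    have hc := MonoidHom.ker_transferSylow_isComplement' P hNC
    set K := (MonoidHom.transferSylow P hNC).ker
    have hKsol : Group.IsSolvable K := by
      have hnd : ¬ p ∣ Nat.card K := MonoidHom.not_dvd_card_ker_transferSylow P hNC
      have hsub : (Nat.card K).primeFactors ⊆ (Nat.card G).primeFactors.erase p := fun t ht => by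
        rw [Finset.mem_erase]
        exact ⟨fun h => hnd (h ▸ Nat.dvd_of_mem_primeFactors ht),
          Nat.primeFactors_mono K.card_subgroup_dvd_card Nat.card_pos.ne' ht⟩
      have hcard : (Nat.card K).primeFactors.card ≤ 2 := by
        have h1 := Finset.card_le_card hsub
        rw [Finset.card_erase_of_mem (Nat.mem_primeFactors.mpr ⟨hpp, hp, Nat.card_pos.ne'⟩)] at h1
        omega
      obtain ⟨a, b, hab⟩ : ∃ a b : ℕ, (Nat.card K).primeFactors ⊆ {a, b} := by
        rcases Nat.lt_or_ge (Nat.card K).primeFactors.card 2 with h | h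
        · obtain ⟨a, ha⟩ := Finset.card_le_one_iff_subset_singleton.mp (Nat.le_of_lt_succ h)
          exact ⟨a, a, ha.trans (by simp)⟩
        · obtain ⟨a, b, -, hab⟩ := Finset.card_eq_two.mp (le_antisymm hcard h)
          exact ⟨a, b, hab.le⟩
      refine CfsgLib.CharBasics.isSolvable_two_primes a b fun r hr hrd => ?_
      simpa using hab (Nat.mem_primeFactors.mpr ⟨hr, hrd, Nat.card_pos.ne'⟩)
    apply hns
    refine CfsgLib.Hall.isSolvable_of_normal K hKsol ?_
    have hq : IsPGroup p (G ⧸ K) := IsPGroup.of_equiv P.isPGroup' hc.symm.QuotientMulEquiv.symm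
    haveI := hq.isNilpotent
    infer_instance
  have hprime : e.Prime := by
    rw [← he]
    exact (index_sylow_prime hG hpp P.isPGroup' hP1 N le_rfl (P.subtype le_normalizer)).resolve_left
      (by rw [he]; exact hne1)
  have hnep : e ≠ p := fun h => (P.subtype (le_normalizer : (P : Subgroup G) ≤ N)).not_dvd_index
    (he.symm ▸ h.symm ▸ dvd_rfl)
  have hedvd : e ∣ Nat.card N := he ▸ Subgroup.index_dvd_card _
  refine ⟨hprime, hnep, Nat.mem_primeFactors.mpr ⟨hprime, hedvd.trans N.card_subgroup_dvd_card,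
    Nat.card_pos.ne'⟩, ?_⟩
  haveI := Fact.mk hprime
  obtain ⟨y, hy⟩ := exists_prime_orderOf_dvd_card' e hedvd
  let φ : zpowers y →* MulAut (P : Subgroup G) :=
    (Subgroup.normalizerMonoidHom (P : Subgroup G)).comp (zpowers y).subtype
  letI : MulAction (zpowers y) (P : Subgroup G) := MulAction.compHom _ φ
  have hY : IsPGroup e (zpowers y) := IsPGroup.of_card (n := 1) (by rw [Nat.card_zpowers, hy, pow_one])
  have hmod := hY.card_modEq_card_fixedPoints (α := (P : Subgroup G))
  have hfix : Nat.card (MulAction.fixedPoints (zpowers y) (P : Subgroup G)) = 1 := by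
    rw [Nat.card_eq_one_iff_unique]
    refine ⟨⟨fun a b => ?_⟩, ⟨⟨1, fun g => map_one (φ g)⟩⟩⟩
    have key : ∀ v : MulAction.fixedPoints (zpowers y) (P : Subgroup G), (v : (P : Subgroup G)) = 1 := by
      rintro ⟨v, hv⟩
      by_contra hv1
      have h1 : (y : G) * v * (y : G)⁻¹ = v := congrArg Subtype.val (hv ⟨y, mem_zpowers y⟩)
      have hv1' : (v : G) ≠ 1 := fun e => hv1 (Subtype.ext e)
      have hy1 : (y : G) ≠ 1 := fun e' => hprime.ne_one (by
        rw [← hy, ← Subgroup.orderOf_coe, e', orderOf_one])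
      have h2 := hG.orderOf_eq_of_commute (mul_inv_eq_iff_eq_mul.mp h1) hy1 hv1'
      rw [Subgroup.orderOf_coe, hy, hG.orderOf_eq_of_mem hpp P.isPGroup' v.2 hv1'] at h2
      exact hnep h2
    exact Subtype.ext ((key a).trans (key b).symm)
  rw [hfix] at hmod
  exact (Nat.modEq_iff_dvd' Nat.card_pos).mp hmod.symm

end Sylow

end CfsgLib.FourOrbits
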