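import Mathlib

/-!
Finite groups in which every nontrivial element has prime order.

* `PrimeOrders`, `orderOf_eq_of_commute`, `pow_eq_one_of_mem`
* `norm_eq_one`, `mem_zpowers_of_normalizes` (the fixed-point-free norm argument)
* `sylow_normal_of_normalizes`, `relIndex_sylow`, `eq_of_inf_ne_bot` (Sylow subgroups are TI)
-/

set_option autoImplicit false
set_option linter.style.haveILetI false

namespace CfsgLib.FourOrbits

open Subgroup
open scoped IsMulCommutative

variable {G : Type*} [Group G]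

/-- Every nontrivial element has prime order. -/
def PrimeOrders (G : Type*) [Group G] : Prop := ∀ g : G, g ≠ 1 → (orderOf g).Prime

theorem PrimeOrders.orderOf_eq (hG : PrimeOrders G) {g : G} {n : ℕ} (hn : n.Prime) {k : ℕ}
    (hg : g ^ n ^ k = 1) (h1 : g ≠ 1) : orderOf g = n :=
  (Nat.prime_dvd_prime_iff_eq (hG g h1) hn).mp ((hG g h1).dvd_of_dvd_pow (orderOf_dvd_of_pow_eq_one hg))

theorem PrimeOrders.orderOf_eq_of_mem (hG : PrimeOrders G) {p : ℕ} (hp : p.Prime) {P : Subgroup G}
    (hP : IsPGroup p P) {x : G} (hx : x ∈ P) (h1 : x ≠ 1) : orderOf x = p := by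
  obtain ⟨k, hk⟩ := hP ⟨x, hx⟩
  exact hG.orderOf_eq hp (congrArg Subtype.val hk) h1

theorem PrimeOrders.pow_eq_one_of_mem (hG : PrimeOrders G) {p : ℕ} (hp : p.Prime) {P : Subgroup G}
    (hP : IsPGroup p P) {x : G} (hx : x ∈ P) : x ^ p = 1 := by
  rcases eq_or_ne x 1 with rfl | h1
  · exact one_pow p
  · rw [← hG.orderOf_eq_of_mem hp hP hx h1, pow_orderOf_eq_one]

/-- Commuting nontrivial elements have the same order. -/
theorem PrimeOrders.orderOf_eq_of_commute (hG : PrimeOrders G) {x y : G} (h : Commute x y)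
    (hx : x ≠ 1) (hy : y ≠ 1) : orderOf x = orderOf y := by
  by_contra hne
  have hp := hG x hx
  have hq := hG y hy
  have h2 := h.orderOf_mul_eq_mul_orderOf_of_coprime ((Nat.coprime_primes hp hq).mpr hne)
  have h3 : x * y ≠ 1 := fun e => by
    rw [e, orderOf_one] at h2
    exact hp.one_lt.ne' (Nat.eq_one_of_mul_eq_one_right h2.symm)
  have h4 := hG (x * y) h3
  rw [h2] at h4
  exact Nat.not_prime_mul hp.ne_one hq.ne_one h4

/-- The norm of a normalising element on an abelian `p`-subgroup is trivial. -/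
theorem norm_eq_one (hG : PrimeOrders G) {p : ℕ} (hp : p.Prime) (A : Subgroup G) [IsMulCommutative A]
    (hA : IsPGroup p A) (z : normalizer (A : Set G)) (hz : (z : G) ≠ 1) (a : A) :
    ∏ i ∈ Finset.range (orderOf (z : G)), A.normalizerMonoidHom (z ^ i) a = 1 := by
  set s := orderOf (z : G) with hs
  have hsp : s.Prime := hG _ hz
  have key : ∀ n : ℕ, ((a : G) * z) ^ n =
      ((∏ i ∈ Finset.range n, A.normalizerMonoidHom (z ^ i) a : A) : G) * (z : G) ^ n := by
    intro n
    induction n with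
    | zero => simp
    | succ n ih =>
      rw [pow_succ, ih, Finset.prod_range_succ, Subgroup.coe_mul]
      have e : ((A.normalizerMonoidHom (z ^ n) a : A) : G) = (z : G) ^ n * a * ((z : G) ^ n)⁻¹ := by
        show ((z ^ n : normalizer (A : Set G)) : G) * a * ((z ^ n : normalizer (A : Set G)) : G)⁻¹ = _
        rw [Subgroup.coe_pow]
      rw [e, pow_succ]
      group
  set N : A := ∏ i ∈ Finset.range s, A.normalizerMonoidHom (z ^ i) a with hN
  have hs1 : ((a : G) * z) ^ s = (N : G) := by rw [key, hs, pow_orderOf_eq_one, mul_one]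
  by_contra hne
  have hN1 : (N : G) ≠ 1 := fun e => hne (Subtype.ext e)
  by_cases haz : (a : G) * z = 1
  · exact hN1 (by rw [← hs1, haz, one_pow])
  by_cases hsp' : s = p
  · obtain ⟨k, hk⟩ := hA N
    have h1 : ((a : G) * z) ^ p ^ (k + 1) = 1 := by
      rw [pow_succ', pow_mul, ← hsp', hs1, hsp']
      exact congrArg Subtype.val hk
    have h2 := hG.orderOf_eq hp h1 haz
    exact hN1 (by rw [← hs1, hsp', ← h2, pow_orderOf_eq_one])
  · have hc1 : Commute (N : G) ((a : G) * z) := hs1 ▸ Commute.pow_self _ s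
    have hc2 : Commute (N : G) (a : G) := congrArg Subtype.val (mul_comm N a)
    have hc3 : Commute (N : G) (z : G) := by
      have := hc2.inv_right.mul_right hc1
      rwa [inv_mul_cancel_left] at this
    have h4 := hG.orderOf_eq_of_commute hc3 hN1 hz
    rw [hG.orderOf_eq_of_mem hp hA N.2 hN1] at h4
    exact hsp' h4.symm

/-- An element `y` of order prime to `p` normalising a nontrivial abelian `p`-subgroup `A`: every
element of `N(A)` normalising `⟨y⟩` lies in `⟨y⟩`. -/
theorem mem_zpowers_of_normalizes [Finite G] (hG : PrimeOrders G) {p : ℕ} (hp : p.Prime)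
    (A : Subgroup G) [IsMulCommutative A] (hA : IsPGroup p A) (hA1 : A ≠ ⊥)
    (y z : normalizer (A : Set G)) (hy : (y : G) ≠ 1) (hyp : orderOf (y : G) ≠ p)
    (hn : z * y * z⁻¹ ∈ zpowers y) : z ∈ zpowers y := by
  classical
  by_contra hzy
  have hz : (z : G) ≠ 1 := fun e => hzy (by
    rw [show z = 1 from Subtype.ext e]; exact one_mem _)
  set Z := zpowers y with hZ
  set s := orderOf (z : G) with hs
  have hsp : s.Prime := hG _ hz
  have hZn : ∀ u ∈ Z, z * u * z⁻¹ ∈ Z := by
    intro u hu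
    obtain ⟨k, rfl⟩ := mem_zpowers_iff.mp hu
    rw [← conj_zpow]
    exact zpow_mem hn k
  have hpowZ : ∀ n : ℕ, ∀ u ∈ Z, z ^ n * u * (z ^ n)⁻¹ ∈ Z := by
    intro n
    induction n with
    | zero => intro u hu; simpa using hu
    | succ n ih =>
      intro u hu
      have h1 := ih _ (hZn u hu)
      rwa [show z ^ n * (z * u * z⁻¹) * (z ^ n)⁻¹ = z ^ (n + 1) * u * (z ^ (n + 1))⁻¹ by
        rw [pow_succ]; group] at h1
  have hcos : ∀ u ∈ Z, ∀ n : ℕ, (u * z) ^ n * (z ^ n)⁻¹ ∈ Z := by
    intro u hu n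
    induction n with
    | zero => simp
    | succ n ih =>
      have e : (u * z) ^ (n + 1) * (z ^ (n + 1))⁻¹ =
          ((u * z) ^ n * (z ^ n)⁻¹) * (z ^ n * u * (z ^ n)⁻¹) := by
        rw [pow_succ, pow_succ]; group
      rw [e]
      exact mul_mem ih (hpowZ n u hu)
  have hzs : z ^ s = 1 := Subtype.ext (by rw [Subgroup.coe_pow, hs, pow_orderOf_eq_one]; rfl)
  -- every element of the coset `Z z` has order `s`
  have hord : ∀ u ∈ Z, orderOf ((u * z : normalizer (A : Set G)) : G) = s := by
    intro u hu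
    have h1 : ((u * z : normalizer (A : Set G)) : G) ≠ 1 := fun e => hzy (by
      have : z = u⁻¹ := eq_inv_of_mul_eq_one_right (Subtype.ext e)
      rw [this]; exact inv_mem hu)
    have ht := hG _ h1
    rw [Subgroup.orderOf_coe] at ht ⊢
    have h2 : (u * z) ^ s ∈ Z := by simpa [hzs] using hcos u hu s
    rcases ht.eq_one_or_self_of_dvd _ (Nat.gcd_dvd_left (orderOf (u * z)) s) with h3 | h3
    · exfalso
      obtain ⟨j, hj⟩ := exists_pow_eq_self_of_coprime (x := u * z) (Nat.Coprime.symm h3)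
      apply hzy
      have h4 : u * z ∈ Z := by rw [← hj]; exact pow_mem h2 j
      simpa using mul_mem (inv_mem hu) h4
    · have h5 : orderOf (u * z) ∣ s := h3 ▸ Nat.gcd_dvd_right (orderOf (u * z)) s
      exact (Nat.prime_dvd_prime_iff_eq ht hsp).mp h5
  let T : normalizer (A : Set G) →* MulAut A := A.normalizerMonoidHom
  letI : Fintype Z := Fintype.ofFinite Z
  -- the norm over `Z`
  have hnormY : ∀ b : A, ∏ u : Z, T (u : normalizer (A : Set G)) b = 1 := by
    intro b
    rw [← norm_eq_one hG hp A hA y hy b, Subgroup.orderOf_coe,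
      ← Fin.prod_univ_eq_prod_range (fun i => A.normalizerMonoidHom (y ^ i) b)]
    exact (Fintype.prod_equiv (finEquivZPowers (isOfFinOrder_of_finite y)) _ _ (fun i => rfl)).symm
  obtain ⟨⟨a, ha⟩, ha1⟩ := Subgroup.ne_bot_iff_exists_ne_one.mp hA1
  set b : A := ⟨a, ha⟩
  -- count all powers of the elements of the coset
  have htot : ∏ u : Z, ∏ i ∈ Finset.range s, T (((u : normalizer (A : Set G)) * z) ^ i) b = 1 := by
    refine Finset.prod_eq_one fun u _ => ?_
    have h1 : (((u : normalizer (A : Set G)) * z : normalizer (A : Set G)) : G) ≠ 1 := fun e => by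
      have h2 := hord u u.2
      rw [e, orderOf_one] at h2
      exact hsp.ne_one h2.symm
    have := norm_eq_one hG hp A hA _ h1 b
    rwa [hord u u.2] at this
  rw [Finset.prod_comm, ← Finset.mul_prod_erase _ _ (Finset.mem_range.mpr hsp.pos)] at htot
  have hrest : ∀ i ∈ (Finset.range s).erase 0,
      ∏ u : Z, T (((u : normalizer (A : Set G)) * z) ^ i) b = 1 := by
    intro i hi
    rw [Finset.mem_erase, Finset.mem_range] at hi
    let σ : Z → Z := fun u => ⟨((u : normalizer (A : Set G)) * z) ^ i * (z ^ i)⁻¹, hcos u u.2 i⟩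
    have hσ : Function.Injective σ := by
      intro u v huv
      have h1 : ((u : normalizer (A : Set G)) * z) ^ i = ((v : normalizer (A : Set G)) * z) ^ i :=
        mul_right_cancel (congrArg Subtype.val huv)
      have hcop : Nat.Coprime i s := (hsp.coprime_iff_not_dvd.mpr
        (Nat.not_dvd_of_pos_of_lt (Nat.pos_of_ne_zero hi.1) hi.2)).symm
      have hou := hord u u.2
      have hov := hord v v.2
      rw [Subgroup.orderOf_coe] at hou hov
      obtain ⟨j, hj⟩ := exists_pow_eq_self_of_coprime (x := (u : normalizer (A : Set G)) * z) (hou ▸ hcop)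
      apply Subtype.ext
      refine mul_right_cancel (b := z) ?_
      rw [← hj, h1]
      have hmod : ((v : normalizer (A : Set G)) * z) ^ (i * j) = (v : normalizer (A : Set G)) * z := by
        have hju : ((u : normalizer (A : Set G)) * z) ^ (i * j) = ((u : normalizer (A : Set G)) * z) ^ 1 := by
          rw [pow_mul, hj, pow_one]
        rw [pow_eq_pow_iff_modEq, hou, ← hov, ← pow_eq_pow_iff_modEq, pow_one] at hju
        exact hju
      rw [← pow_mul, hmod]
    have hbij : Function.Bijective σ := Finite.injective_iff_bijective.mp hσ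
    refine Eq.trans ?_ (hnormY (T (z ^ i) b))
    refine Fintype.prod_equiv (Equiv.ofBijective σ hbij) _ _ (fun u => ?_)
    show T _ b = T (((u : normalizer (A : Set G)) * z) ^ i * (z ^ i)⁻¹) (T (z ^ i) b)
    rw [← MulAut.mul_apply, ← map_mul, inv_mul_cancel_right]
  rw [Finset.prod_eq_one hrest, mul_one] at htot
  simp only [pow_zero, map_one, MulAut.one_apply, Finset.prod_const, Finset.card_univ,
    ← Nat.card_eq_fintype_card] at htot
  rw [hZ, Nat.card_zpowers, ← Subgroup.orderOf_coe] at htot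
  apply ha1
  refine Subtype.ext ?_
  by_contra hne
  have h6 : orderOf a = p := hG.orderOf_eq_of_mem hp hA ha hne
  have h7 : orderOf a ∣ orderOf (y : G) :=
    orderOf_dvd_of_pow_eq_one (congrArg Subtype.val htot)
  rw [h6] at h7
  exact hyp ((Nat.prime_dvd_prime_iff_eq hp (hG _ hy)).mp h7).symm

variable [Finite G] {p : ℕ} {A : Subgroup G} [IsMulCommutative A]

/-- A nontrivial `q`-group normalising a nontrivial abelian `p`-group has order `q`. -/
theorem card_eq_of_normalizes (hG : PrimeOrders G) (hp : p.Prime) (hA : IsPGroup p A) (hA1 : A ≠ ⊥)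
    {q : ℕ} [Fact q.Prime] (hqp : q ≠ p) (Y : Subgroup (normalizer (A : Set G))) (hY : IsPGroup q Y)
    (hY1 : Y ≠ ⊥) : Nat.card Y = q := by
  haveI : Nontrivial Y := (Subgroup.nontrivial_iff_ne_bot Y).mpr hY1
  haveI := hY.center_nontrivial
  obtain ⟨c, hc⟩ := exists_ne (1 : center Y)
  set y : normalizer (A : Set G) := ((c : Y) : normalizer (A : Set G)) with hy
  have hy1 : y ≠ 1 := fun e => hc (Subtype.ext (Subtype.ext e))
  have hy1' : (y : G) ≠ 1 := fun e => hy1 (Subtype.ext e)
  have hyo : orderOf (y : G) = q := hG.orderOf_eq_of_mem (Fact.out : q.Prime)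
    (hY.map (normalizer (A : Set G)).subtype) ⟨y, (c : Y).2, rfl⟩ hy1'
  have hle : Y ≤ zpowers y := by
    intro z hz
    refine mem_zpowers_of_normalizes hG hp A hA hA1 y z hy1' (hyo ▸ hqp) ?_
    have h := congrArg Subtype.val (mem_center_iff.mp c.2 ⟨z, hz⟩)
    change z * y = y * z at h
    rw [h, mul_inv_cancel_right]
    exact mem_zpowers y
  have heq : Y = zpowers y := le_antisymm hle (zpowers_le.mpr (c : Y).2)
  rw [heq, Nat.card_zpowers, ← Subgroup.orderOf_coe, hyo]

/-- For every prime `q ≠ p` dividing its order, a subgroup of `N(A)` has a normal subgroup of index `q`. -/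
theorem exists_normal_index (hG : PrimeOrders G) (hp : p.Prime) (hA : IsPGroup p A) (hA1 : A ≠ ⊥)
    (M : Subgroup G) (hM : M ≤ normalizer (A : Set G))
    {q : ℕ} (hq : q.Prime) (hqp : q ≠ p) (hqd : q ∣ Nat.card M) :
    ∃ K : Subgroup M, K.Normal ∧ K.index = q ∧ ¬ q ∣ Nat.card K := by
  haveI := Fact.mk hq
  obtain ⟨Y⟩ : Nonempty (Sylow q M) := inferInstance
  set i : M →* normalizer (A : Set G) := Subgroup.inclusion hM with hi
  have hiinj : Function.Injective i := Subgroup.inclusion_injective hM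
  have hY1 : (Y : Subgroup M) ≠ ⊥ := Y.ne_bot_of_dvd_card hqd
  have hcard : Nat.card Y = q := by
    have h := card_eq_of_normalizes hG hp hA hA1 hqp ((Y : Subgroup M).map i) (Y.isPGroup'.map i)
      (fun h => hY1 ((Subgroup.map_eq_bot_iff_of_injective _ hiinj).mp h))
    rwa [Subgroup.card_map_of_injective hiinj] at h
  obtain ⟨y, hy⟩ := ((isCyclic_of_prime_card hcard).exists_generator)
  have hgen : ∀ w : M, w ∈ (Y : Subgroup M) → w ∈ zpowers (y : M) := fun w hw => by
    obtain ⟨k, hk⟩ := mem_zpowers_iff.mp (hy ⟨w, hw⟩)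
    exact mem_zpowers_iff.mpr ⟨k, congrArg Subtype.val hk⟩
  have hy1 : ((y : M) : G) ≠ 1 := fun e => hY1 (by
    rw [eq_bot_iff]
    intro w hw
    obtain ⟨k, hk⟩ := mem_zpowers_iff.mp (hgen w hw)
    rw [mem_bot, ← hk, show (y : M) = 1 from Subtype.ext e, one_zpow])
  have hyo : orderOf ((y : M) : G) = q := hG.orderOf_eq_of_mem hq
    (Y.isPGroup'.map M.subtype) ⟨y, y.2, rfl⟩ hy1
  have hNC : normalizer ((Y : Subgroup M) : Set M) ≤ centralizer ((Y : Subgroup M) : Set M) := by
    intro w hw
    have hwy : w * y * w⁻¹ ∈ zpowers (y : M) := hgen _ ((mem_normalizer_iff.mp hw _).mp y.2)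
    have h1 : i w ∈ zpowers (i y) := by
      refine mem_zpowers_of_normalizes hG hp A hA hA1 (i y) (i w) hy1 (fun e => hqp (hyo.symm.trans e)) ?_
      obtain ⟨k, hk⟩ := mem_zpowers_iff.mp hwy
      rw [← map_inv, ← map_mul, ← map_mul, ← hk, map_zpow]
      exact zpow_mem (mem_zpowers _) k
    obtain ⟨k, hk⟩ := mem_zpowers_iff.mp h1
    rw [← map_zpow] at hk
    rw [← hiinj hk, mem_centralizer_iff]
    intro v hv
    obtain ⟨l, rfl⟩ := mem_zpowers_iff.mp (hgen v hv)
    exact ((Commute.refl (y : M)).zpow_zpow l k).eq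
  have hc := MonoidHom.ker_transferSylow_isComplement' Y hNC
  refine ⟨_, inferInstance, by rw [hc.symm.index_eq_card, hcard], ?_⟩
  exact MonoidHom.not_dvd_card_ker_transferSylow Y hNC

/-- A subgroup normalising a nontrivial abelian `p`-subgroup has only one Sylow `p`-subgroup. -/
theorem sylow_normal_of_normalizes (hG : PrimeOrders G) (hp : p.Prime) (hA : IsPGroup p A)
    (hA1 : A ≠ ⊥) (M : Subgroup G) (hM : M ≤ normalizer (A : Set G)) [Fact p.Prime] (P : Sylow p M) :
    (P : Subgroup M).Normal := by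
  classical
  choose K hKn hKi hKd using fun q : {q : ℕ // q.Prime ∧ q ≠ p ∧ q ∣ Nat.card M} =>
    exists_normal_index hG hp hA hA1 M hM q.2.1 q.2.2.1 q.2.2.2
  set N : Subgroup M := ⨅ q, K q with hN
  haveI : N.Normal := Subgroup.normal_iInf_normal hKn
  have hle : (P : Subgroup M) ≤ N := by
    refine le_iInf fun q => ?_
    haveI := hKn q
    intro x hx
    obtain ⟨k, hk⟩ := P.isPGroup' ⟨x, hx⟩
    have hk' : x ^ p ^ k = 1 := congrArg Subtype.val hk
    rw [← QuotientGroup.eq_one_iff, ← orderOf_eq_one_iff]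
    refine Nat.eq_one_of_dvd_coprimes (Nat.Coprime.pow_right k ((Nat.coprime_primes q.2.1 hp).mpr q.2.2.1))
      ((hKi q) ▸ Subgroup.index_eq_card (K q) ▸ orderOf_dvd_natCard _) ?_
    exact (orderOf_map_dvd (QuotientGroup.mk' (K q)) x).trans (orderOf_dvd_of_pow_eq_one hk')
  have hNp : IsPGroup p N := by
    rw [IsPGroup.iff_card]
    refine ⟨_, Nat.eq_prime_pow_of_unique_prime_dvd (p := p) Nat.card_pos.ne' ?_⟩
    intro d hd hdN
    by_contra hdp
    exact hKd ⟨d, hd, hdp, hdN.trans N.card_subgroup_dvd_card⟩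
      (hdN.trans (Subgroup.card_dvd_of_le (iInf_le K _)))
  rw [← P.3 hNp hle]
  infer_instance

omit [IsMulCommutative A] in
/-- The index of a Sylow subgroup in a subgroup normalising a nontrivial abelian `p`-subgroup. -/
theorem index_sylow_prime [IsMulCommutative A] (hG : PrimeOrders G) (hp : p.Prime) (hA : IsPGroup p A)
    (hA1 : A ≠ ⊥) (M : Subgroup G) (hM : M ≤ normalizer (A : Set G)) [Fact p.Prime] (P : Sylow p M) :
    (P : Subgroup M).index = 1 ∨ (P : Subgroup M).index.Prime := by
  classical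
  rw [or_iff_not_imp_left]
  intro h1
  obtain ⟨q, hq, hqd⟩ := Nat.exists_prime_and_dvd h1
  have hqp : q ≠ p := fun e => P.not_dvd_index (e ▸ hqd)
  have hqM : q ∣ Nat.card M := hqd.trans (Subgroup.index_dvd_card _)
  obtain ⟨K, hK, hKi, hKd⟩ := exists_normal_index hG hp hA hA1 M hM hq hqp hqM
  haveI := hK
  suffices h : (P : Subgroup M).index = q by rw [h]; exact hq
  -- no prime other than `q` divides the index
  have honly : ∀ r : ℕ, r.Prime → r ∣ (P : Subgroup M).index → r = q := by
    intro r hr hrd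
    by_contra hrq
    have hrp : r ≠ p := fun e => P.not_dvd_index (e ▸ hrd)
    have hrM : r ∣ Nat.card M := hrd.trans (Subgroup.index_dvd_card _)
    obtain ⟨L, hL, hLi, hLd⟩ := exists_normal_index hG hp hA hA1 M hM hr hrp hrM
    haveI := hL
    haveI := Fact.mk hq
    haveI := Fact.mk hr
    obtain ⟨u, hu⟩ := exists_prime_orderOf_dvd_card' q hqM
    obtain ⟨v, hv⟩ := exists_prime_orderOf_dvd_card' r hrM
    have out : ∀ (J : Subgroup M) [J.Normal] (t : ℕ) (w : M), J.index = t → ¬ (t ∣ Nat.card J) →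
        orderOf w = t → w ∉ J := fun J _ t w _ hJd hw hwJ => hJd (hw ▸ J.orderOf_dvd_natCard hwJ)
    have inn : ∀ (J : Subgroup M) [J.Normal] (t t' : ℕ) (w : M), t.Prime → t'.Prime → t ≠ t' →
        J.index = t → orderOf w = t' → w ∈ J := fun J _ t t' w ht ht' hne hJi hw => by
      rw [← QuotientGroup.eq_one_iff, ← orderOf_eq_one_iff]
      refine Nat.eq_one_of_dvd_coprimes ((Nat.coprime_primes ht ht').mpr hne)
        (hJi ▸ Subgroup.index_eq_card J ▸ orderOf_dvd_natCard _) ?_
      exact hw ▸ orderOf_map_dvd (QuotientGroup.mk' J) w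
    have hwK : u * v ∉ K := fun h => out K q u hKi hKd hu
      ((Subgroup.mul_mem_cancel_right K (inn K q r v hq hr (Ne.symm hrq) hKi hv)).mp h)
    have hwL : u * v ∉ L := fun h => out L r v hLi hLd hv
      ((Subgroup.mul_mem_cancel_left L (inn L r q u hr hq hrq hLi hu)).mp h)
    have hw1 : ((u * v : M) : G) ≠ 1 := fun e => hwK (by
      rw [show u * v = 1 from Subtype.ext e]; exact one_mem _)
    have ht := hG _ hw1
    rw [Subgroup.orderOf_coe] at ht
    rcases eq_or_ne q (orderOf (u * v)) with e | e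
    · exact hwL (inn L r _ _ hr ht (e ▸ hrq) hLi rfl)
    · exact hwK (inn K q _ _ hq ht e hKi rfl)
  refine Nat.dvd_antisymm ?_ hqd
  have hpow := Nat.eq_prime_pow_of_unique_prime_dvd (p := q) Subgroup.index_ne_zero_of_finite
    (fun {d} hd hdd => honly d hd hdd)
  have h2 : q ^ (P : Subgroup M).index.primeFactorsList.length ∣ Nat.card K * K.index := by
    rw [K.card_mul_index, ← hpow]; exact Subgroup.index_dvd_card _
  have h3 := ((hq.coprime_iff_not_dvd.mpr hKd).pow_left _).dvd_of_dvd_mul_left h2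
  rw [hKi, ← hpow] at h3
  exact h3

omit [IsMulCommutative A] [Finite G] in
/-- The centre of a subgroup, as a subgroup of the group. -/
theorem normalizer_le_normalizer_center (D : Subgroup G) :
    normalizer (D : Set G) ≤ normalizer (((center D).map D.subtype : Subgroup G) : Set G) := by
  have h : ∀ g ∈ normalizer (D : Set G), ∀ a ∈ (center D).map D.subtype,
      g * a * g⁻¹ ∈ (center D).map D.subtype := by
    rintro g hg _ ⟨⟨c, hcD⟩, hc, rfl⟩
    refine ⟨⟨g * c * g⁻¹, (mem_normalizer_iff.mp hg c).mp hcD⟩, ?_, rfl⟩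
    rw [SetLike.mem_coe, mem_center_iff]
    rintro ⟨d, hd⟩
    apply Subtype.ext
    show d * (g * c * g⁻¹) = g * c * g⁻¹ * d
    have h2 : g⁻¹ * d * g ∈ D := (mem_normalizer_iff''.mp hg d).mp hd
    have h3 : g⁻¹ * d * g * c = c * (g⁻¹ * d * g) :=
      congrArg Subtype.val (mem_center_iff.mp hc ⟨_, h2⟩)
    calc d * (g * c * g⁻¹) = g * (g⁻¹ * d * g * c) * g⁻¹ := by group
      _ = g * (c * (g⁻¹ * d * g)) * g⁻¹ := by rw [h3]
      _ = _ := by group
  intro g hg
  rw [mem_normalizer_iff]
  intro a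
  refine ⟨h g hg a, fun ha => ?_⟩
  simpa [mul_assoc] using h g⁻¹ (inv_mem hg) _ ha

omit [IsMulCommutative A] in
/-- Distinct Sylow subgroups meet trivially. -/
theorem eq_of_inf_ne_bot (hG : PrimeOrders G) [Fact p.Prime] (P Q : Sylow p G)
    (h : (P : Subgroup G) ⊓ Q ≠ ⊥) : P = Q := by
  classical
  by_contra hne
  obtain ⟨⟨P, Q⟩, hPQ⟩ := (Set.toFinite {x : Sylow p G × Sylow p G | x.1 ≠ x.2 ∧
    (x.1 : Subgroup G) ⊓ x.2 ≠ ⊥}).exists_maximalFor (fun x => (x.1 : Subgroup G) ⊓ x.2) _ ⟨⟨P, Q⟩, hne, h⟩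
  obtain ⟨hne', hD1⟩ := hPQ.1
  change P ≠ Q at hne'
  change (P : Subgroup G) ⊓ Q ≠ ⊥ at hD1
  set D : Subgroup G := (P : Subgroup G) ⊓ Q with hD
  have hDp : IsPGroup p D := P.isPGroup'.to_le inf_le_left
  set A : Subgroup G := (center D).map D.subtype with hAdef
  haveI : IsMulCommutative A := Subgroup.map_isMulCommutative _ _
  have hAp : IsPGroup p A := (hDp.to_subgroup _).map _
  have hA1 : A ≠ ⊥ := by
    haveI : Nontrivial D := (Subgroup.nontrivial_iff_ne_bot D).mpr hD1
    rw [Ne, hAdef, Subgroup.map_eq_bot_iff_of_injective _ D.subtype_injective]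
    exact (Subgroup.nontrivial_iff_ne_bot _).mp hDp.center_nontrivial
  set M := normalizer (D : Set G) with hM
  obtain ⟨S⟩ : Nonempty (Sylow p M) := inferInstance
  have hSn := sylow_normal_of_normalizes hG Fact.out hAp hA1 M (normalizer_le_normalizer_center D) S
  haveI := Sylow.unique_of_normal S hSn
  obtain ⟨T, hT⟩ := (S.isPGroup'.map M.subtype).exists_le_sylow
  have hsub : ∀ R : Sylow p G, D < (R : Subgroup G) → T = R := by
    intro R hR
    haveI : Group.IsNilpotent R := R.isPGroup'.isNilpotent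
    have hgrow : D < (R : Subgroup G) ⊓ M := by
      refine lt_of_le_of_ne (le_inf hR.le le_normalizer) (fun e => ?_)
      have hlt : D.subgroupOf (R : Subgroup G) < ⊤ := by
        rw [lt_top_iff_ne_top, Ne, Subgroup.subgroupOf_eq_top]
        exact fun hc => hR.not_ge hc
      have h1 := Group.normalizerCondition_of_isNilpotent (G := (R : Subgroup G)) _ hlt
      refine h1.not_ge fun w hw => ?_
      have h2 : (w : G) ∈ M := by
        rw [hM, mem_normalizer_iff]
        intro x
        constructor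
        · intro hx
          exact (mem_normalizer_iff.mp hw ⟨x, hR.le hx⟩).mp hx
        · intro hx
          have h3 := hR.le hx
          have hxR : x ∈ (R : Subgroup G) := by
            have := mul_mem (mul_mem (inv_mem w.2) h3) w.2
            simpa [mul_assoc] using this
          exact (mem_normalizer_iff.mp hw ⟨x, hxR⟩).mpr hx
      have h4 : (w : G) ∈ (R : Subgroup G) ⊓ M := ⟨w.2, h2⟩
      rw [← e] at h4
      exact h4
    have hle : (R : Subgroup G) ⊓ M ≤ T := by
      refine le_trans ?_ hT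
      intro x hx
      have hPg : IsPGroup p (((R : Subgroup G) ⊓ M).subgroupOf M) :=
        (R.isPGroup'.to_le inf_le_left).comap_of_injective _ M.subtype_injective
      obtain ⟨U, hU⟩ := hPg.exists_le_sylow
      exact ⟨⟨x, hx.2⟩, Subsingleton.elim U S ▸ hU (Subgroup.mem_subgroupOf.mpr hx), rfl⟩
    by_contra hne''
    have hlt : D < (T : Subgroup G) ⊓ R := hgrow.trans_le (le_inf hle inf_le_left)
    exact hlt.not_ge (hPQ.2 (j := (T, R)) ⟨hne'', ne_bot_of_gt hlt⟩ hlt.le)
  have hDP : D < (P : Subgroup G) := lt_of_le_of_ne inf_le_left fun e => hne'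
    (Sylow.ext ((inf_eq_left.mp e) |> fun hle => (P.3 Q.isPGroup' hle).symm))
  have hDQ : D < (Q : Subgroup G) := lt_of_le_of_ne inf_le_right fun e => hne'
    (Sylow.ext ((inf_eq_right.mp e) |> fun hle => (Q.3 P.isPGroup' hle)))
  exact hne' ((hsub P hDP).symm.trans (hsub Q hDQ))

end CfsgLib.FourOrbits
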