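import Cfsg.Agent.FourOrbits.Count

/-!
There is no group of order `504` with prime element orders, elementary Sylow `2`-subgroup with
normaliser of index `9` and normaliser of a subgroup of order `7` of order `14`.
-/

set_option autoImplicit false
set_option linter.style.haveILetI false

namespace CfsgLib.FourOrbits

open Subgroup

theorem card_ne_504 {G : Type*} [Group G] [Finite G] (hG : PrimeOrders G) (hH : Homogeneous G)
    [Fact (Nat.Prime 2)] [Fact (Nat.Prime 7)] (P : Sylow 2 G) (hP : Nat.card P = 8)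
    (hN : (P : Subgroup G).relIndex (normalizer ((P : Subgroup G) : Set G)) = 7)
    (h7 : ∀ R : Sylow 7 G, Nat.card R = 7 ∧
      (R : Subgroup G).relIndex (normalizer ((R : Subgroup G) : Set G)) = 2)
    (hcard : Nat.card G = 504) : False := by
  classical
  set N := normalizer ((P : Subgroup G) : Set G) with hNdef
  have hPN : (P : Subgroup G) ≤ N := le_normalizer
  have hNcard : Nat.card N = 56 := by
    have h := Subgroup.card_mul_index ((P : Subgroup G).subgroupOf N)
    rw [Nat.card_congr (subgroupOfEquivOfLe hPN).toEquiv, show ((P : Subgroup G).subgroupOf N).index = 7 from hN] at h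
    change Nat.card (P : Subgroup G) * 7 = _ at h
    rw [hP] at h
    omega
  have hNidx : N.index = 9 := by
    have h := N.card_mul_index
    rw [hNcard, hcard] at h
    omega
  obtain ⟨y, hy⟩ := exists_prime_orderOf_dvd_card' (G := N) 7 (by rw [hNcard]; norm_num)
  rw [← Subgroup.orderOf_coe] at hy
  set Y := zpowers (y : G) with hYdef
  have hY : Nat.card Y = 7 := by rw [hYdef, Nat.card_zpowers, hy]
  obtain ⟨R, hR⟩ := (IsPGroup.of_card (n := 1) (by rw [hY, pow_one]) : IsPGroup 7 Y).exists_le_sylow
  obtain ⟨hR7, hRe⟩ := h7 R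
  have hYR : Y = R := Subgroup.eq_of_le_of_card_ge hR (by rw [hR7, hY])
  obtain ⟨w, hwo⟩ := exists_prime_orderOf_dvd_card' (G := normalizer (Y : Set G)) 2 (by
    rw [hYR]
    exact hRe ▸ Subgroup.index_dvd_card ((R : Subgroup G).subgroupOf _))
  rw [← Subgroup.orderOf_coe] at hwo
  set v : G := (w : G) with hv
  have hv2 : v * v = 1 := by rw [← pow_two, ← hwo, pow_orderOf_eq_one]
  have hv1 : v ≠ 1 := fun e => by rw [e, orderOf_one] at hwo; norm_num at hwo
  have hy1 : (y : G) ≠ 1 := fun e => by rw [e, orderOf_one] at hy; norm_num at hy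
  have hvy : v * (y : G) * v⁻¹ ∈ Y := (mem_normalizer_iff.mp w.2 _).mp (mem_zpowers _)
  have hPconj : ∀ g ∈ N, ∀ a ∈ (P : Subgroup G), g * a * g⁻¹ ∈ (P : Subgroup G) := fun g hg a ha =>
    (mem_normalizer_iff.mp hg a).mp ha
  have hyn : ∀ k : ℤ, (y : G) ^ k ∈ N := fun k => N.zpow_mem y.2 k
  have hPY : ∀ a : G, a ∈ (P : Subgroup G) → a ∈ Y → a = 1 := by
    intro a ha haY
    by_contra h1
    have h := hG.orderOf_eq_of_mem Nat.prime_two P.isPGroup' ha h1
    have h' := hy ▸ orderOf_dvd_of_mem_zpowers haY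
    rw [h] at h'
    norm_num at h'
  -- involutions of `N` lie in `P`
  have hN2 : ∀ g ∈ N, g * g = 1 → g ∈ (P : Subgroup G) := by
    intro g hg hg2
    have h2 : IsPGroup 2 (zpowers g) := by
      intro ⟨x, hx⟩
      obtain ⟨k, rfl⟩ := mem_zpowers_iff.mp hx
      exact ⟨1, Subtype.ext (by
        show (g ^ k) ^ 2 ^ 1 = 1
        rw [pow_one, ← zpow_natCast, ← zpow_mul, mul_comm, zpow_mul, zpow_natCast, pow_two, hg2, one_zpow])⟩
    have hle : zpowers g ≤ N := zpowers_le.mpr hg
    obtain ⟨S, hS⟩ := (h2.comap_subtype (K := N)).exists_le_sylow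
    have hn : ((P.subtype hPN : Sylow 2 N) : Subgroup N).Normal := Subgroup.normal_in_normalizer
    haveI := Sylow.unique_of_normal _ hn
    have : (⟨g, hg⟩ : N) ∈ ((P.subtype hPN : Sylow 2 N) : Subgroup N) := by
      rw [Subsingleton.elim (P.subtype hPN) S]
      exact hS (mem_subgroupOf.mpr (mem_zpowers g))
    exact this
  have hvN : v ∉ N := by
    intro hvN
    have hvP := hN2 v hvN hv2
    have h1 : v * (y : G) * v⁻¹ * (y : G)⁻¹ = 1 := by
      refine hPY _ ?_ (mul_mem hvy (inv_mem (mem_zpowers _)))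
      have : v * ((y : G) * v⁻¹ * (y : G)⁻¹) ∈ (P : Subgroup G) :=
        mul_mem hvP (hPconj _ y.2 _ (inv_mem hvP))
      simpa [mul_assoc] using this
    have h2 := hG.orderOf_eq_of_commute (mul_inv_eq_iff_eq_mul.mp (mul_inv_eq_one.mp h1)) hv1 hy1
    omega
  -- a conjugate of an element of `P` by `v` in `N` is trivial
  have hdis : ∀ u ∈ (P : Subgroup G), v * u * v ∈ N → u = 1 := by
    intro u hu huN
    by_contra hu1
    have hu2 : u * u = 1 := by rw [← pow_two]; exact hG.pow_eq_one_of_mem Nat.prime_two P.isPGroup' hu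
    have hz : v * u * v ∈ (P : Subgroup G) := hN2 _ huN (by
      calc v * u * v * (v * u * v) = v * u * (v * v) * u * v := by group
        _ = 1 := by rw [hv2, mul_one, mul_assoc v u u, hu2, mul_one, hv2])
    -- `u` and its conjugate lie in `P` and `v P v`
    set Q : Sylow 2 G := MulAut.conj v • P with hQ
    have hQP : Q = P := eq_of_inf_ne_bot hG Q P fun e => hu1 (by
      have hmem : u ∈ (Q : Subgroup G) ⊓ P := by
        refine ⟨?_, hu⟩
        refine ⟨v * u * v, hz, ?_⟩
        show v * (v * u * v) * v⁻¹ = u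
        calc v * (v * u * v) * v⁻¹ = (v * v) * u := by group
          _ = u := by rw [hv2, one_mul]
      rwa [e, Subgroup.mem_bot] at hmem)
    exact hvN (Sylow.smul_eq_iff_mem_normalizer.mp hQP)
  -- the points other than `N`
  haveI : Fintype (G ⧸ N) := Fintype.ofFinite _
  haveI : Fintype (P : Subgroup G) := Fintype.ofFinite _
  let pt : ↥(P : Subgroup G) → {c : G ⧸ N // c ≠ QuotientGroup.mk 1} := fun u =>
    ⟨QuotientGroup.mk ((u : G) * v), fun e => hvN (by
      have h := QuotientGroup.eq.mp e
      rw [mul_one, inv_mem_iff] at h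
      simpa using N.mul_mem (N.inv_mem (hPN u.2)) h)⟩
  have hpt : Function.Bijective pt := by
    rw [Fintype.bijective_iff_injective_and_card]
    refine ⟨fun a b hab => ?_, ?_⟩
    · have h := QuotientGroup.eq.mp (congrArg Subtype.val hab : (QuotientGroup.mk ((a : G) * v) : G ⧸ N) = _)
      have h' : v * ((a : G)⁻¹ * b) * v ∈ N := by
        have hvi : v⁻¹ = v := inv_eq_of_mul_eq_one_right hv2
        rw [mul_inv_rev, hvi] at h
        simpa [mul_assoc] using h
      exact Subtype.ext (inv_mul_eq_one.mp (hdis _ (mul_mem (inv_mem a.2) b.2) h'))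
    · rw [Fintype.card_subtype_compl, Fintype.card_subtype_eq, ← Nat.card_eq_fintype_card,
        ← Nat.card_eq_fintype_card, ← Subgroup.index_eq_card, hNidx]
      exact hP
  let e := Equiv.ofBijective pt hpt
  -- the map `f` with `v u v ∈ f u v N`
  let X := {u : (P : Subgroup G) // u ≠ 1}
  have hne : ∀ u : X, (QuotientGroup.mk (v * ((u.1 : (P : Subgroup G)) : G) * v) : G ⧸ N) ≠ QuotientGroup.mk 1 := fun u e' => u.2 (by
    have h := QuotientGroup.eq.mp e'
    rw [mul_one, inv_mem_iff] at h
    exact Subtype.ext (hdis _ u.1.2 h))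
  let f0 : X → ↥(P : Subgroup G) := fun u => e.symm ⟨_, hne u⟩
  have hf0 : ∀ u : X, (QuotientGroup.mk ((f0 u : G) * v) : G ⧸ N) = QuotientGroup.mk (v * ((u.1 : (P : Subgroup G)) : G) * v) := fun u =>
    congrArg Subtype.val (e.apply_symm_apply ⟨_, hne u⟩)
  have huniq : ∀ (u : X) (a : (P : Subgroup G)),
      (QuotientGroup.mk ((a : G) * v) : G ⧸ N) = QuotientGroup.mk (v * ((u.1 : (P : Subgroup G)) : G) * v) →
      f0 u = a := fun u a h => hpt.1 (Subtype.ext ((hf0 u).trans h.symm))
  have hf1 : ∀ u : X, f0 u ≠ 1 := by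
    intro u e'
    have h := hf0 u
    rw [e', Subgroup.coe_one, one_mul] at h
    have h' := QuotientGroup.eq.mp h
    have h'' : ((u.1 : (P : Subgroup G)) : G) * v ∈ N := by
      have hvi : v⁻¹ = v := inv_eq_of_mul_eq_one_right hv2
      rw [hvi, ← mul_assoc, ← mul_assoc, hv2, one_mul] at h'
      exact h'
    exact hvN (by simpa using N.mul_mem (N.inv_mem (hPN u.1.2)) h'')
  let f : X → X := fun u => ⟨f0 u, hf1 u⟩
  have hinv : ∀ u, f (f u) = u := by
    intro u
    apply Subtype.ext
    refine huniq (f u) u.1 ?_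
    show (QuotientGroup.mk _ : G ⧸ N) = QuotientGroup.mk (v * (f0 u : G) * v)
    have h := QuotientGroup.eq.mp (hf0 u)
    rw [QuotientGroup.eq]
    have hvi : v⁻¹ = v := inv_eq_of_mul_eq_one_right hv2
    rw [mul_inv_rev, hvi] at h ⊢
    have h2 := N.inv_mem h
    simp only [mul_inv_rev, inv_inv, hvi] at h2
    simpa [mul_assoc] using h2
  -- the fixed points are everything
  have hfix : ∀ u : X, f u = u := by
    let g : X → ↥(P : Subgroup G) := fun u => u.1 * (f u).1
    have hgf : ∀ u, g (f u) = g u := fun u => by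
      show (f u).1 * (f (f u)).1 = u.1 * (f u).1
      rw [hinv u]
      exact Subtype.ext (sylow_comm hG hH P (f u).1.2 u.1.2)
    haveI : Fintype X := Fintype.ofFinite X
    set S := Finset.univ.filter (fun u : X => f u = u) with hS
    set T := Finset.univ.filter (fun u : X => ¬ f u = u) with hT
    have hcover : ((Finset.univ : Finset X).image Subtype.val : Finset (P : Subgroup G)) ⊆ S.image Subtype.val ∪ T.image g := by
      intro a ha
      obtain ⟨⟨a, ha1⟩, -, rfl⟩ := Finset.mem_image.mp ha
      rw [Finset.mem_union]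
      set x : G := v * (a : G) with hx
      have hx1 : x ≠ 1 := fun e' => hvN (by
        rw [mul_eq_one_iff_eq_inv.mp e']; exact N.inv_mem (hPN a.2))
      have ho : orderOf x = 2 ∨ orderOf x = 3 ∨ orderOf x = 7 := by
        have hp := hG x hx1
        have hd : orderOf x ∣ 504 := hcard ▸ orderOf_dvd_natCard x
        rw [show (504 : ℕ) = 2 ^ 3 * (3 ^ 2 * 7) by norm_num] at hd
        rcases hp.dvd_mul.mp hd with h | h
        · exact Or.inl ((Nat.prime_dvd_prime_iff_eq hp Nat.prime_two).mp (hp.dvd_of_dvd_pow h))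
        rcases hp.dvd_mul.mp h with h | h
        · exact Or.inr (Or.inl ((Nat.prime_dvd_prime_iff_eq hp Nat.prime_three).mp (hp.dvd_of_dvd_pow h)))
        · exact Or.inr (Or.inr ((Nat.prime_dvd_prime_iff_eq hp (by norm_num)).mp h))
      have ha2 : (a : G) * a = 1 := by rw [← pow_two]; exact hG.pow_eq_one_of_mem Nat.prime_two P.isPGroup' a.2
      have hai : (a : G)⁻¹ = a := inv_eq_of_mul_eq_one_right ha2
      have hvi : v⁻¹ = v := inv_eq_of_mul_eq_one_right hv2
      rcases ho with ho | ho | ho
      · exfalso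
        have h : x * x = 1 := by rw [← pow_two, ← ho, pow_orderOf_eq_one]
        have h' : Commute (a : G) v := by
          have h2 := eq_inv_of_mul_eq_one_left h
          rw [hx, mul_inv_rev, hai, hvi] at h2
          exact h2.symm
        exact hvN (hPN (mem_of_commute hG P a.2 (fun e' => ha1 (Subtype.ext e')) h'))
      · left
        refine Finset.mem_image.mpr ⟨⟨a, ha1⟩, Finset.mem_filter.mpr ⟨Finset.mem_univ _, Subtype.ext ?_⟩, rfl⟩
        refine huniq _ a ?_
        show (QuotientGroup.mk _ : G ⧸ N) = QuotientGroup.mk (v * (a : G) * v)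
        have h : x * x * x = 1 := by
          have := pow_orderOf_eq_one x
          rw [ho, pow_succ, pow_two] at this
          exact this
        rw [QuotientGroup.eq, mul_inv_rev, hvi, hai]
        have h' : v * (a : G) * (v * (a : G) * v) = (a : G)⁻¹ := by
          refine eq_inv_of_mul_eq_one_left ?_
          rw [← h, hx]; group
        rw [h', hai]
        exact hPN a.2
      · right
        -- `x` of order `7` fixes a point
        haveI : Finite (zpowers x) := inferInstance
        have hX : IsPGroup 7 (zpowers x) := IsPGroup.of_card (n := 1) (by rw [Nat.card_zpowers, ho, pow_one])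
        have hmod := hX.card_modEq_card_fixedPoints (α := G ⧸ N)
        rw [← Subgroup.index_eq_card, hNidx] at hmod
        obtain ⟨c, hc⟩ : (MulAction.fixedPoints (zpowers x) (G ⧸ N)).Nonempty := by
          by_contra hemp
          rw [Set.not_nonempty_iff_eq_empty] at hemp
          rw [hemp] at hmod
          simp [Nat.ModEq] at hmod
        have hc' : x • c = c := hc ⟨x, mem_zpowers x⟩
        rcases eq_or_ne c (QuotientGroup.mk 1) with rfl | hc1
        · exfalso
          have h0 : (QuotientGroup.mk (x * 1) : G ⧸ N) = QuotientGroup.mk 1 := hc'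
          have h := QuotientGroup.eq.mp h0
          rw [mul_one, mul_one, inv_mem_iff] at h
          exact hvN (by simpa [hx] using N.mul_mem h (N.inv_mem (hPN a.2)))
        obtain ⟨b, hb⟩ := hpt.2 ⟨c, hc1⟩
        have hb' : (QuotientGroup.mk ((b : G) * v) : G ⧸ N) = c := congrArg Subtype.val hb
        rw [← hb'] at hc'
        have hab1 : a * b ≠ 1 := fun e' => by
          have e'' : (a : G) * b = 1 := congrArg Subtype.val e'
          have h1 : (QuotientGroup.mk (x * ((b : G) * v)) : G ⧸ N) = QuotientGroup.mk ((b : G) * v) := hc'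
          have h2 : x * ((b : G) * v) = 1 := by
            calc x * ((b : G) * v) = v * ((a : G) * b) * v := by rw [hx]; group
              _ = 1 := by rw [e'', mul_one, hv2]
          rw [h2] at h1
          exact hc1 (hb'.symm.trans h1.symm)
        have hfb : f0 ⟨a * b, hab1⟩ = b := by
          refine huniq _ b ?_
          refine hc'.symm.trans ?_
          show (QuotientGroup.mk (x * ((b : G) * v)) : G ⧸ N) = QuotientGroup.mk (v * ((a * b : (P : Subgroup G)) : G) * v)
          congr 1
          rw [hx, Subgroup.coe_mul]; group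
        refine Finset.mem_image.mpr ⟨⟨a * b, hab1⟩, Finset.mem_filter.mpr ⟨Finset.mem_univ _, fun e' => ?_⟩, ?_⟩
        · apply ha1
          have h' : b = a * b := hfb.symm.trans (congrArg Subtype.val e')
          exact mul_eq_right.mp h'.symm
        · show a * b * f0 ⟨a * b, hab1⟩ = a
          rw [hfb]
          apply Subtype.ext
          show (a : G) * b * b = a
          rw [mul_assoc, ← pow_two, hG.pow_eq_one_of_mem Nat.prime_two P.isPGroup' b.2, mul_one]
    have h2 : 2 * (T.image g).card ≤ T.card := by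
      rw [Finset.card_eq_sum_card_image g T, mul_comm, ← smul_eq_mul]
      refine Finset.card_nsmul_le_sum _ _ _ fun c hc => ?_
      obtain ⟨u, hu, rfl⟩ := Finset.mem_image.mp hc
      refine Finset.one_lt_card.mpr ⟨u, Finset.mem_filter.mpr ⟨hu, rfl⟩, f u, ?_, ?_⟩
      · refine Finset.mem_filter.mpr ⟨Finset.mem_filter.mpr ⟨Finset.mem_univ _, ?_⟩, hgf u⟩
        rw [hinv u]
        exact Ne.symm (Finset.mem_filter.mp hu).2
      · exact Ne.symm (Finset.mem_filter.mp hu).2
    have hXc : (Finset.univ : Finset X).card = S.card + T.card :=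
      (Finset.card_filter_add_card_filter_not (s := Finset.univ) (fun u : X => f u = u)).symm
    have h3 : (Finset.univ : Finset X).card ≤ S.card + (T.image g).card := by
      rw [← Finset.card_image_of_injective _ Subtype.val_injective]
      exact (Finset.card_le_card hcover).trans ((Finset.card_union_le _ _).trans
        (Nat.add_le_add_right Finset.card_image_le _))
    intro u
    by_contra hu
    have : 0 < T.card := Finset.card_pos.mpr ⟨u, Finset.mem_filter.mpr ⟨Finset.mem_univ _, hu⟩⟩
    omega
  -- equivariance under `y` contradicts `f = id`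
  obtain ⟨a, ha⟩ : ∃ a : (P : Subgroup G), a ≠ 1 := by
    haveI : Nontrivial (P : Subgroup G) := Finite.one_lt_card_iff_nontrivial.mp (by
      change 1 < Nat.card P; omega)
    exact exists_ne 1
  have hvyv : v * (y : G) * v = (y : G)⁻¹ := by
    have hvi : v⁻¹ = v := inv_eq_of_mul_eq_one_right hv2
    rw [hvi] at hvy
    obtain ⟨k, hk⟩ := mem_zpowers_iff.mp hvy
    -- `k² ≡ 1` and `k ≢ 1` modulo `7`
    have h1 : (y : G) ^ (k * k) = y := by
      rw [zpow_mul, hk]
      calc (v * (y : G) * v) ^ k = v * (y : G) ^ k * v := by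
            have := conj_zpow (i := k) (a := v) (b := (y : G))
            rwa [hvi] at this
        _ = v * (v * (y : G) * v) * v := by rw [hk]
        _ = y := by
            calc v * (v * (y : G) * v) * v = (v * v) * y * (v * v) := by group
              _ = y := by rw [hv2, one_mul, mul_one]
    have h2 : (7 : ℤ) ∣ k * k - 1 := by
      have := orderOf_dvd_iff_zpow_eq_one.mpr (show (y : G) ^ (k * k - 1) = 1 by
        rw [zpow_sub, h1, zpow_one, mul_inv_cancel])
      rw [hy] at this
      exact_mod_cast this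
    have h3 : (7 : ℤ) ∣ k - 1 ∨ (7 : ℤ) ∣ k + 1 := by
      have : k * k - 1 = (k - 1) * (k + 1) := by ring
      rw [this] at h2
      exact (Int.prime_iff_natAbs_prime.mpr (by norm_num)).dvd_mul.mp h2
    rcases h3 with h3 | h3
    · exfalso
      have h4 : (y : G) ^ (k - 1) = 1 := orderOf_dvd_iff_zpow_eq_one.mp (by rw [hy]; exact_mod_cast h3)
      rw [zpow_sub, zpow_one, mul_inv_eq_one, hk] at h4
      have h5 : Commute v (y : G) := by
        show v * (y : G) = y * v
        calc v * (y : G) = v * y * v * v := by rw [mul_assoc, hv2, mul_one]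
          _ = y * v := by rw [h4]
      have h6 := hG.orderOf_eq_of_commute h5 hv1 hy1
      omega
    · have h4 : (y : G) ^ (k + 1) = 1 := orderOf_dvd_iff_zpow_eq_one.mp (by rw [hy]; exact_mod_cast h3)
      rw [zpow_add, zpow_one, hk] at h4
      exact eq_inv_of_mul_eq_one_left h4
  have key : ∀ (b : (P : Subgroup G)), b ≠ 1 → ∀ n ∈ N, v * (b : G) * v * n = (b : G) * v →
      ∀ hb : (y : G) * b * (y : G)⁻¹ ∈ (P : Subgroup G), (y : G)⁻¹ * b * y = y * b * (y : G)⁻¹ := by
    intro b hb1 n hn hbn hb
    have hb1' : (⟨_, hb⟩ : (P : Subgroup G)) ≠ 1 := fun e' => hb1 (Subtype.ext (by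
      have h := congrArg Subtype.val e'
      simp only [Subgroup.coe_one] at h
      rw [mul_inv_eq_one] at h
      exact mul_eq_left.mp h))
    have hb2 : (y : G)⁻¹ * b * y ∈ (P : Subgroup G) := by
      simpa using hPconj _ (N.inv_mem y.2) _ b.2
    have h := huniq ⟨⟨_, hb⟩, hb1'⟩ ⟨_, hb2⟩ (by
      show (QuotientGroup.mk ((y : G)⁻¹ * b * y * v) : G ⧸ N) = QuotientGroup.mk (v * ((y : G) * b * (y : G)⁻¹) * v)
      rw [QuotientGroup.eq]
      have hvi : v⁻¹ = v := inv_eq_of_mul_eq_one_right hv2
      have e1 : v * ((y : G) * b * (y : G)⁻¹) * v = (y : G)⁻¹ * ((b : G) * v) * n⁻¹ * y := by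
        rw [← hbn]
        have e2 : v * (y : G)⁻¹ * v = y := by
          have h := congrArg (·⁻¹) hvyv
          simp only [mul_inv_rev, hvi, inv_inv] at h
          simpa [mul_assoc] using h
        calc v * ((y : G) * b * (y : G)⁻¹) * v
            = (v * y * v) * (v * b * v) * (v * (y : G)⁻¹ * v) := by
              calc v * ((y : G) * b * (y : G)⁻¹) * v = v * y * (1 * b * 1) * (y : G)⁻¹ * v := by group
                _ = v * y * ((v * v) * b * (v * v)) * (y : G)⁻¹ * v := by rw [hv2]
                _ = _ := by group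
          _ = (y : G)⁻¹ * (v * b * v) * y := by rw [hvyv, e2]
          _ = _ := by group
      rw [e1]
      have e3 : ((y : G)⁻¹ * b * y * v)⁻¹ * ((y : G)⁻¹ * ((b : G) * v) * n⁻¹ * y) =
          (v * (y : G)⁻¹ * v) * n⁻¹ * y := by
        rw [mul_inv_rev, mul_inv_rev, mul_inv_rev, hvi, inv_inv]
        group
      rw [e3, ← hvi]
      have e4 : v⁻¹ * (y : G)⁻¹ * v⁻¹ = y := by
        have h := congrArg (·⁻¹) hvyv
        simp only [mul_inv_rev, inv_inv] at h
        simpa [mul_assoc] using h
      rw [e4]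
      exact N.mul_mem (N.mul_mem y.2 (N.inv_mem hn)) y.2)
    have h2 := congrArg Subtype.val (hfix ⟨⟨_, hb⟩, hb1'⟩)
    exact (congrArg Subtype.val (h.symm.trans h2))
  have h0 := QuotientGroup.eq.mp (hf0 ⟨a, ha⟩)
  rw [show f0 ⟨a, ha⟩ = a from congrArg Subtype.val (hfix ⟨a, ha⟩)] at h0
  have h1 := key a ha _ (N.inv_mem h0) (by group) (hPconj _ y.2 _ a.2)
  have h2 : Commute (a : G) ((y : G) ^ 2) := by
    show (a : G) * (y : G) ^ 2 = (y : G) ^ 2 * a
    calc (a : G) * (y : G) ^ 2 = y * ((y : G)⁻¹ * a * y) * y := by rw [pow_two]; group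
      _ = y * (y * a * (y : G)⁻¹) * y := by rw [h1]
      _ = _ := by rw [pow_two]; group
  have hy2 : orderOf ((y : G) ^ 2) = 7 := by
    rw [(Nat.Coprime.orderOf_pow (by rw [hy]; norm_num)), hy]
  have h3 := hG.orderOf_eq_of_commute h2 (fun e' => ha (Subtype.ext e'))
    (fun e' => by rw [e', orderOf_one] at hy2; norm_num at hy2)
  rw [hG.orderOf_eq_of_mem Nat.prime_two P.isPGroup' a.2 (fun e' => ha (Subtype.ext e')), hy2] at h3
  norm_num at h3

end CfsgLib.FourOrbits
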